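-- helper61: p-group lemmas for S4587 (|P:P'| = p^2 versus a centralizer of order p^2).
import Mathlib
import Cfsg.Agent.Lib.Helper2.FrattiniP
import Cfsg.Agent.S4586

set_option autoImplicit false

namespace Cfsg.Agent.Lib.Helper61.MC

open Subgroup

/-- A finite group whose Frattini subgroup has index dividing a prime `p` is commutative. -/
theorem comm_of_frattini_index_dvd {P : Type*} [Group P] [Finite P] {p : ℕ} [Fact p.Prime]
    (hΦ : (frattini P).index ∣ p) : ∀ a b : P, a * b = b * a := by
  have hp : p.Prime := Fact.out
  rcases (Nat.dvd_prime hp).mp hΦ with h1 | h1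
  · have htop : frattini P = ⊤ := Subgroup.index_eq_one.mp h1
    have hbot : (⊥ : Subgroup P) = ⊤ := frattini_nongenerating (by rw [htop]; simp)
    intro a b
    have ha : a ∈ (⊥ : Subgroup P) := by rw [hbot]; exact mem_top a
    have hb : b ∈ (⊥ : Subgroup P) := by rw [hbot]; exact mem_top b
    rw [mem_bot] at ha hb
    rw [ha, hb]
  · have hne : frattini P ≠ ⊤ := by
      intro htop
      rw [htop, Subgroup.index_top] at h1
      exact hp.one_lt.ne h1
    obtain ⟨x, hx⟩ : ∃ x : P, x ∉ frattini P := by
      by_contra hcon
      exact hne (eq_top_iff.mpr fun y _ => by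
        by_contra hy
        exact hcon ⟨y, hy⟩)
    have hsup : zpowers x ⊔ frattini P = ⊤ := by
      have hle2 : frattini P ≤ zpowers x ⊔ frattini P := le_sup_right
      have hmul := Subgroup.relIndex_mul_index hle2
      rw [h1] at hmul
      have hd : (zpowers x ⊔ frattini P).index ∣ p := Dvd.intro_left _ hmul
      rcases (Nat.dvd_prime hp).mp hd with h2 | h2
      · exact Subgroup.index_eq_one.mp h2
      · exfalso
        rw [h2] at hmul
        have h3 : (frattini P).relIndex (zpowers x ⊔ frattini P) = 1 :=
          Nat.eq_of_mul_eq_mul_right hp.pos (by rw [hmul, one_mul])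
        have h4 := Subgroup.relIndex_eq_one.mp h3
        exact hx (h4 ((le_sup_left : zpowers x ≤ zpowers x ⊔ frattini P) (mem_zpowers x)))
    have htop : zpowers x = ⊤ := frattini_nongenerating hsup
    intro a b
    have ha : a ∈ zpowers x := by rw [htop]; exact mem_top a
    have hb : b ∈ zpowers x := by rw [htop]; exact mem_top b
    obtain ⟨i, rfl⟩ := mem_zpowers_iff.mp ha
    obtain ⟨j, rfl⟩ := mem_zpowers_iff.mp hb
    rw [← zpow_add, ← zpow_add, add_comm]

/-- A finite `p`-group whose derived subgroup has index dividing `p` is commutative. -/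
theorem comm_of_commutator_index_dvd {P : Type*} [Group P] [Finite P] {p : ℕ} [Fact p.Prime]
    (hP : IsPGroup p P) (h : (commutator P).index ∣ p) : ∀ a b : P, a * b = b * a :=
  comm_of_frattini_index_dvd
    ((Subgroup.index_dvd_of_le (Cfsg.Agent.Lib.Helper2.commutator_le_frattini hP)).trans h)

/-- A finite `p`-group containing an element whose centralizer has order `p ^ 2` has derived
subgroup of index `p ^ 2`. -/
theorem commutator_index_of_card_centralizer {P : Type*} [Group P] [Finite P] {p : ℕ}
    [Fact p.Prime] (hP : IsPGroup p P) (x : P)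
    (hx : Nat.card (centralizer ({x} : Set P)) = p ^ 2) : (commutator P).index = p ^ 2 := by
  have hp : p.Prime := Fact.out
  by_cases hab : ∀ a b : P, a * b = b * a
  · have hC : centralizer ({x} : Set P) = ⊤ := by
      rw [eq_top_iff]
      intro g _
      rw [mem_centralizer_iff]
      intro h hh
      exact hab h g
    have hcomm : commutator P = ⊥ := by
      rw [eq_bot_iff, commutator_def, Subgroup.commutator_le]
      intro g₁ _ g₂ _
      rw [mem_bot, commutatorElement_def, hab g₁ g₂]
      group
    rw [hcomm, Subgroup.index_bot, ← hx, hC, Subgroup.card_top]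
  · have hinj : (centralizer ({x} : Set P)).index ≤ Nat.card (commutator P) := by
      have hmem : ∀ g : P, g * x * g⁻¹ * x⁻¹ ∈ commutator P := by
        intro g
        rw [commutator_def]
        exact Subgroup.commutator_mem_commutator (mem_top g) (mem_top x)
      let f : P ⧸ centralizer ({x} : Set P) → commutator P := fun q =>
        Quotient.liftOn' q (fun g => (⟨g * x * g⁻¹ * x⁻¹, hmem g⟩ : commutator P)) (by
          intro a b hab'
          rw [QuotientGroup.leftRel_apply] at hab'
          have hc := mem_centralizer_iff.mp hab' x (Set.mem_singleton x)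
          apply Subtype.ext
          show a * x * a⁻¹ * x⁻¹ = b * x * b⁻¹ * x⁻¹
          have h3 : a * x * a⁻¹ = b * x * b⁻¹ := by
            calc a * x * a⁻¹ = a * (x * (a⁻¹ * b)) * b⁻¹ := by group
              _ = a * (a⁻¹ * b * x) * b⁻¹ := by rw [hc]
              _ = b * x * b⁻¹ := by group
          rw [h3])
      rw [Subgroup.index]
      apply Nat.card_le_card_of_injective f
      intro q₁ q₂
      induction q₁ using QuotientGroup.induction_on with
      | H a =>
        induction q₂ using QuotientGroup.induction_on with
        | H b =>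
          intro h
          have h' : a * x * a⁻¹ * x⁻¹ = b * x * b⁻¹ * x⁻¹ := congrArg Subtype.val h
          rw [QuotientGroup.eq, mem_centralizer_iff]
          intro y hy
          rw [Set.mem_singleton_iff] at hy
          rw [hy]
          have h'' : a * x * a⁻¹ = b * x * b⁻¹ := mul_right_cancel h'
          calc x * (a⁻¹ * b) = a⁻¹ * (a * x * a⁻¹) * b := by group
            _ = a⁻¹ * (b * x * b⁻¹) * b := by rw [h'']
            _ = a⁻¹ * b * x := by group
    have h1 := Subgroup.card_mul_index (centralizer ({x} : Set P))
    have h2 := Subgroup.card_mul_index (commutator P)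
    rw [hx] at h1
    have hpos : 0 < Nat.card (commutator P) := Nat.card_pos
    have hle : (commutator P).index ≤ p ^ 2 := by
      have h3 : Nat.card (commutator P) * (commutator P).index ≤
          Nat.card (commutator P) * p ^ 2 := by
        rw [h2, ← h1, mul_comm]
        exact Nat.mul_le_mul_right _ hinj
      exact Nat.le_of_mul_le_mul_left h3 hpos
    obtain ⟨n, hn⟩ := IsPGroup.iff_card.mp hP
    have hdvd : (commutator P).index ∣ p ^ n := hn ▸ Subgroup.index_dvd_card _
    obtain ⟨k, hk, hkeq⟩ := (Nat.dvd_prime_pow hp).mp hdvd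
    have hk2 : k ≤ 2 := by
      rw [hkeq] at hle
      exact (Nat.pow_le_pow_iff_right hp.one_lt).mp hle
    interval_cases k
    · exfalso; apply hab; apply comm_of_commutator_index_dvd hP; rw [hkeq]; simp
    · exfalso; apply hab; apply comm_of_commutator_index_dvd hP; rw [hkeq]; simp
    · exact hkeq

/-- In a finite `p`-group with derived subgroup of index `p ^ 2` and a commutative normal
subgroup `N` of index `p`, every element outside `N` has centralizer of order `p ^ 2`. -/
theorem card_centralizer_of_abelian_index {P : Type*} [Group P] [Finite P] {p : ℕ}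
    [Fact p.Prime] (hP : IsPGroup p P) (N : Subgroup P) [N.Normal] (hN : N.index = p)
    (hab : ∀ a ∈ N, ∀ b ∈ N, a * b = b * a) (hidx : (commutator P).index = p ^ 2)
    (y : P) (hy : y ∉ N) : Nat.card (centralizer ({y} : Set P)) = p ^ 2 := by
  have hp : p.Prime := Fact.out
  have h1 := ((Cfsg.Agent.S4586.result p hP N hN).1.mp hidx) y hy
  have hcN : commutator N = ⊥ := by
    rw [eq_bot_iff, commutator_def, Subgroup.commutator_le]
    intro g₁ _ g₂ _
    have h' : g₁ * g₂ = g₂ * g₁ := Subtype.ext (hab g₁ g₁.2 g₂ g₂.2)
    rw [mem_bot, commutatorElement_def, h']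
    group
  rw [hcN, Subgroup.map_bot, Subgroup.card_bot, mul_one] at h1
  have hB : Nat.card ↥(N ⊓ centralizer ({y} : Set P)) = p := by
    rw [← h1]
    apply Nat.card_congr
    refine
      { toFun := fun g => ⟨⟨g.1, g.2.1⟩, ?_⟩
        invFun := fun n => ⟨n.1.1, n.1.2, ?_⟩
        left_inv := fun g => rfl
        right_inv := fun n => rfl }
    · have hc := mem_centralizer_iff.mp g.2.2 y (Set.mem_singleton y)
      rw [mem_bot]
      show y * (g : P) * y⁻¹ * (g : P)⁻¹ = 1
      rw [hc]
      group
    · have h2 : y * (n.1 : P) * y⁻¹ * (n.1 : P)⁻¹ = 1 := mem_bot.mp n.2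
      show (n.1 : P) ∈ centralizer ({y} : Set P)
      rw [mem_centralizer_iff]
      intro h hh
      rw [Set.mem_singleton_iff] at hh
      rw [hh]
      calc y * (n.1 : P) = (y * (n.1 : P) * y⁻¹ * (n.1 : P)⁻¹) * ((n.1 : P) * y) := by group
        _ = (n.1 : P) * y := by rw [h2, one_mul]
  have hyC : y ∈ centralizer ({y} : Set P) := by
    rw [mem_centralizer_iff]
    intro h hh
    rw [Set.mem_singleton_iff] at hh
    rw [hh]
  have hrel : N.relIndex (centralizer ({y} : Set P)) = p := by
    have hd : N.relIndex (centralizer ({y} : Set P)) ∣ p :=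
      hN ▸ Subgroup.relIndex_dvd_index_of_normal N (centralizer ({y} : Set P))
    rcases (Nat.dvd_prime hp).mp hd with h2 | h2
    · exact absurd (Subgroup.relIndex_eq_one.mp h2 hyC) hy
    · exact h2
  have hcard := Subgroup.card_mul_index (N.subgroupOf (centralizer ({y} : Set P)))
  have he : Nat.card (N.subgroupOf (centralizer ({y} : Set P))) =
      Nat.card ↥(N ⊓ centralizer ({y} : Set P)) := by
    rw [← Subgroup.inf_subgroupOf_right]
    exact Nat.card_congr (Subgroup.subgroupOfEquivOfLe inf_le_right).toEquiv
  have hi : (N.subgroupOf (centralizer ({y} : Set P))).index = p := hrel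
  rw [he, hB, hi] at hcard
  rw [← hcard]
  ring

end Cfsg.Agent.Lib.Helper61.MC
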