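-- helper61: Sylow wrappers for S4587 (centralizers of p-elements, transport between Sylows).
import Mathlib
import Cfsg.Agent.Lib.Helper22.Conj
import Cfsg.Agent.Lib.Helper61.MC.PGrp

set_option autoImplicit false

namespace Cfsg.Agent.Lib.Helper61.MC

open Subgroup

/-- For a `p`-element `x` there is a Sylow `p`-subgroup `P₁` containing `x` in which the
centralizer of `x` has the order of a Sylow `p`-subgroup of `C_G(x)`. -/
theorem exists_sylow_centralizer {G : Type*} [Group G] [Finite G] {p : ℕ} [Fact p.Prime] (x : G)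
    (hx : ∃ k : ℕ, orderOf x = p ^ k) :
    ∃ (P₁ : Sylow p G) (hx₁ : x ∈ (P₁ : Subgroup G)),
      Nat.card (centralizer ({(⟨x, hx₁⟩ : (P₁ : Subgroup G))} : Set (P₁ : Subgroup G))) =
        p ^ (Nat.card (centralizer ({x} : Set G))).factorization p := by
  classical
  obtain ⟨k, hk⟩ := hx
  obtain ⟨C, hC⟩ : ∃ C : Subgroup G, C = centralizer ({x} : Set G) := ⟨_, rfl⟩
  have hmemC : ∀ g : G, g ∈ C ↔ x * g = g * x := by
    intro g
    rw [hC, mem_centralizer_iff]
    constructor
    · intro h; exact h x (Set.mem_singleton x)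
    · intro h y hy
      rw [Set.mem_singleton_iff] at hy
      rw [hy]; exact h
  have hxC : x ∈ C := (hmemC x).mpr rfl
  obtain ⟨T⟩ : Nonempty (Sylow p C) := inferInstance
  have hTcard : Nat.card T = p ^ (Nat.card C).factorization p := T.card_eq_multiplicity
  have hxT : (⟨x, hxC⟩ : C) ∈ (T : Subgroup C) := by
    have hnorm : (zpowers (⟨x, hxC⟩ : C)).Normal := by
      constructor
      intro n hn g
      obtain ⟨i, rfl⟩ := mem_zpowers_iff.mp hn
      have hg : (⟨x, hxC⟩ : C) * g = g * ⟨x, hxC⟩ := Subtype.ext ((hmemC g).mp g.2)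
      have hcomm : Commute g (⟨x, hxC⟩ : C) := hg.symm
      rw [(hcomm.zpow_right i).eq, mul_inv_cancel_right]
      exact zpow_mem (mem_zpowers _) i
    have hpg : IsPGroup p (zpowers (⟨x, hxC⟩ : C)) := by
      apply IsPGroup.of_card (n := k)
      rw [Nat.card_zpowers, ← hk]
      exact Subgroup.orderOf_mk x hxC
    exact (hpg.le_sylow_of_normal T) (mem_zpowers _)
  have hS : IsPGroup p ((T : Subgroup C).map C.subtype) := T.2.map _
  obtain ⟨P₁, hP₁⟩ := hS.exists_le_sylow
  have hx₁ : x ∈ (P₁ : Subgroup G) := hP₁ ⟨⟨x, hxC⟩, hxT, rfl⟩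
  refine ⟨P₁, hx₁, ?_⟩
  rw [← hC, ← hTcard]
  obtain ⟨C₁, hC₁⟩ : ∃ C₁ : Subgroup (P₁ : Subgroup G),
      C₁ = centralizer ({(⟨x, hx₁⟩ : (P₁ : Subgroup G))} : Set (P₁ : Subgroup G)) := ⟨_, rfl⟩
  rw [← hC₁]
  have hmemC₁ : ∀ g : (P₁ : Subgroup G), g ∈ C₁ ↔ x * (g : G) = (g : G) * x := by
    intro g
    rw [hC₁, mem_centralizer_iff]
    constructor
    · intro h; exact congrArg Subtype.val (h ⟨x, hx₁⟩ (Set.mem_singleton _))
    · intro h y hy
      rw [Set.mem_singleton_iff] at hy
      rw [hy]; exact Subtype.ext h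
  have hmap : C₁.map (P₁ : Subgroup G).subtype = (T : Subgroup C).map C.subtype := by
    apply le_antisymm
    · rintro _ ⟨g, hg, rfl⟩
      have hgC : (g : G) ∈ C := (hmemC g).mpr ((hmemC₁ g).mp hg)
      have hpg : IsPGroup p ((P₁ : Subgroup G).subgroupOf C) := P₁.isPGroup'.comap_subtype
      have hle : (T : Subgroup C) ≤ (P₁ : Subgroup G).subgroupOf C := by
        intro t ht
        rw [mem_subgroupOf]
        exact hP₁ ⟨t, ht, rfl⟩
      have heq := T.is_maximal' hpg hle
      have hgT : (⟨(g : G), hgC⟩ : C) ∈ (T : Subgroup C) := by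
        rw [← heq, mem_subgroupOf]; exact g.2
      exact ⟨⟨g, hgC⟩, hgT, rfl⟩
    · rintro _ ⟨t, ht, rfl⟩
      have htP : (t : G) ∈ (P₁ : Subgroup G) := hP₁ ⟨t, ht, rfl⟩
      exact ⟨⟨t, htP⟩, (hmemC₁ _).mpr ((hmemC t).mp t.2), rfl⟩
  have h1 : Nat.card C₁ = Nat.card (C₁.map (P₁ : Subgroup G).subtype) :=
    (Subgroup.card_map_of_injective (subtype_injective _)).symm
  have h2 : Nat.card ((T : Subgroup C).map C.subtype) = Nat.card (T : Subgroup C) :=
    Subgroup.card_map_of_injective (subtype_injective _)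
  rw [h1, hmap, h2]

/-- Any two Sylow `p`-subgroups are images of each other under an inner automorphism. -/
theorem sylow_eq_map_conj {G : Type*} [Group G] [Finite G] {p : ℕ} [Fact p.Prime]
    (P P₁ : Sylow p G) :
    ∃ g : G, (P₁ : Subgroup G) = (P : Subgroup G).map (MulAut.conj g).toMonoidHom := by
  obtain ⟨g, hg⟩ := MulAction.exists_smul_eq G P P₁
  refine ⟨g, ?_⟩
  rw [← hg]
  rfl

/-- The relative index of the derived subgroup, as an index in the subgroup type. -/
theorem relIndex_commutator_self {G : Type*} [Group G] (H : Subgroup G) :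
    (⁅H, H⁆).relIndex H = (commutator ↥H).index := by
  rw [Subgroup.relIndex, ← Subgroup.map_subtype_commutator]
  congr 1
  exact Subgroup.comap_map_eq_self_of_injective (subtype_injective H) _

/-- The index of the derived subgroup is the same for all Sylow `p`-subgroups. -/
theorem commutator_index_sylow {G : Type*} [Group G] [Finite G] {p : ℕ} [Fact p.Prime]
    (P P₁ : Sylow p G) :
    (commutator ↥(P₁ : Subgroup G)).index = (commutator ↥(P : Subgroup G)).index := by
  obtain ⟨g, hg⟩ := sylow_eq_map_conj P P₁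
  have key : ∀ (H H₁ : Subgroup G), H₁ = H.map (MulAut.conj g).toMonoidHom →
      (commutator ↥H₁).index = (commutator ↥H).index := by
    intro H H₁ h
    subst h
    exact (Nat.card_congr (H.equivMapOfInjective (MulAut.conj g).toMonoidHom
      (MulAut.conj g).injective).abelianizationCongr.toEquiv).symm
  exact key _ _ hg

/-- A normal subgroup has the same relative index in all Sylow `p`-subgroups. -/
theorem relIndex_sylow {G : Type*} [Group G] [Finite G] {p : ℕ} [Fact p.Prime]
    (P P₁ : Sylow p G) (N : Subgroup G) [hN : N.Normal] :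
    N.relIndex (P₁ : Subgroup G) = N.relIndex (P : Subgroup G) := by
  obtain ⟨g, hg⟩ := sylow_eq_map_conj P P₁
  have hNg : N.map (MulAut.conj g).toMonoidHom = N := by
    ext x
    rw [Cfsg.Agent.Lib.Helper22.mem_map_conj_iff]
    constructor
    · intro h
      have := hN.conj_mem _ h g
      simpa [mul_assoc] using this
    · intro h
      have := hN.conj_mem _ h g⁻¹
      simpa [mul_assoc] using this
  rw [hg]
  conv_lhs => rw [← hNg]
  exact Subgroup.relIndex_map_map_of_injective N (P : Subgroup G) (MulAut.conj g).injective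

/-- Commutativity of the intersection with a normal subgroup passes between Sylow
`p`-subgroups. -/
theorem abelian_inf_sylow {G : Type*} [Group G] [Finite G] {p : ℕ} [Fact p.Prime]
    (P P₁ : Sylow p G) (N : Subgroup G) [hN : N.Normal]
    (hab : ∀ a ∈ (P : Subgroup G) ⊓ N, ∀ b ∈ (P : Subgroup G) ⊓ N, a * b = b * a) :
    ∀ a ∈ (P₁ : Subgroup G) ⊓ N, ∀ b ∈ (P₁ : Subgroup G) ⊓ N, a * b = b * a := by
  obtain ⟨g, hg⟩ := sylow_eq_map_conj P P₁
  intro a ha b hb
  have ha1 : g⁻¹ * a * g ∈ (P : Subgroup G) ⊓ N := by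
    refine ⟨?_, ?_⟩
    · have h0 : a ∈ (P : Subgroup G).map (MulAut.conj g).toMonoidHom := hg ▸ ha.1
      exact Cfsg.Agent.Lib.Helper22.mem_map_conj_iff.mp h0
    · have := hN.conj_mem _ ha.2 g⁻¹
      simpa [mul_assoc] using this
  have hb1 : g⁻¹ * b * g ∈ (P : Subgroup G) ⊓ N := by
    refine ⟨?_, ?_⟩
    · have h0 : b ∈ (P : Subgroup G).map (MulAut.conj g).toMonoidHom := hg ▸ hb.1
      exact Cfsg.Agent.Lib.Helper22.mem_map_conj_iff.mp h0
    · have := hN.conj_mem _ hb.2 g⁻¹
      simpa [mul_assoc] using this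
  have h := hab _ ha1 _ hb1
  calc a * b = g * ((g⁻¹ * a * g) * (g⁻¹ * b * g)) * g⁻¹ := by group
    _ = g * ((g⁻¹ * b * g) * (g⁻¹ * a * g)) * g⁻¹ := by rw [h]
    _ = b * a := by group

/-- If some `p`-element has centralizer with `p`-part `p ^ 2`, the derived subgroup of a Sylow
`p`-subgroup has index `p ^ 2` in it. -/
theorem relIndex_commutator_of_centralizer {G : Type*} [Group G] [Finite G] {p : ℕ}
    [Fact p.Prime] (P : Sylow p G) (x : G) (hx : ∃ k : ℕ, orderOf x = p ^ k)
    (h : (Nat.card (centralizer ({x} : Set G))).factorization p = 2) :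
    (⁅(P : Subgroup G), (P : Subgroup G)⁆).relIndex (P : Subgroup G) = p ^ 2 := by
  obtain ⟨P₁, hx₁, hc⟩ := exists_sylow_centralizer x hx
  rw [h] at hc
  have h1 := commutator_index_of_card_centralizer P₁.isPGroup' ⟨x, hx₁⟩ hc
  rw [relIndex_commutator_self, ← commutator_index_sylow P P₁]
  exact h1

/-- If a Sylow `p`-subgroup `P` with `|P : P'| = p ^ 2` meets a normal subgroup `N` in a
commutative subgroup of index `p`, then some `p`-element has centralizer with `p`-part
`p ^ 2`. -/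
theorem exists_centralizer_of_abelian_index {G : Type*} [Group G] [Finite G] {p : ℕ}
    [Fact p.Prime] (P : Sylow p G) (N : Subgroup G) [N.Normal]
    (hN : N.relIndex (P : Subgroup G) = p)
    (hab : ∀ a ∈ (P : Subgroup G) ⊓ N, ∀ b ∈ (P : Subgroup G) ⊓ N, a * b = b * a)
    (hidx : (⁅(P : Subgroup G), (P : Subgroup G)⁆).relIndex (P : Subgroup G) = p ^ 2) :
    ∃ x : G, (∃ k : ℕ, orderOf x = p ^ k) ∧
      (Nat.card (centralizer ({x} : Set G))).factorization p = 2 := by
  have hp : p.Prime := Fact.out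
  obtain ⟨y, hyP, hyN⟩ : ∃ y ∈ (P : Subgroup G), y ∉ N := by
    by_contra hcon
    have hle : (P : Subgroup G) ≤ N := by
      intro y hy
      by_contra hyN
      exact hcon ⟨y, hy, hyN⟩
    rw [Subgroup.relIndex_eq_one.mpr hle] at hN
    exact hp.one_lt.ne hN
  have hyord : ∃ k : ℕ, orderOf y = p ^ k := by
    obtain ⟨k, hk⟩ := P.isPGroup' ⟨y, hyP⟩
    have h1 : y ^ p ^ k = 1 := congrArg Subtype.val hk
    obtain ⟨j, -, hj⟩ := (Nat.dvd_prime_pow hp).mp (orderOf_dvd_of_pow_eq_one h1)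
    exact ⟨j, hj⟩
  obtain ⟨P₁, hy₁, hc⟩ := exists_sylow_centralizer y hyord
  have hidx₁ : (commutator ↥(P₁ : Subgroup G)).index = p ^ 2 := by
    rw [commutator_index_sylow P P₁, ← relIndex_commutator_self]; exact hidx
  have hN₁ : (N.subgroupOf (P₁ : Subgroup G)).index = p := (relIndex_sylow P P₁ N).trans hN
  have t3 := abelian_inf_sylow P P₁ N hab
  have hab₁ : ∀ a ∈ N.subgroupOf (P₁ : Subgroup G), ∀ b ∈ N.subgroupOf (P₁ : Subgroup G),
      a * b = b * a := by
    intro a ha b hb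
    apply Subtype.ext
    exact t3 a ⟨a.2, mem_subgroupOf.mp ha⟩ b ⟨b.2, mem_subgroupOf.mp hb⟩
  have hy' : (⟨y, hy₁⟩ : (P₁ : Subgroup G)) ∉ N.subgroupOf (P₁ : Subgroup G) := by
    rw [mem_subgroupOf]; exact hyN
  have h2 := card_centralizer_of_abelian_index P₁.isPGroup' (N.subgroupOf (P₁ : Subgroup G))
    hN₁ hab₁ hidx₁ ⟨y, hy₁⟩ hy'
  rw [h2] at hc
  exact ⟨y, hyord, (Nat.pow_right_injective hp.two_le hc).symm⟩

end Cfsg.Agent.Lib.Helper61.MC
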