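-- helper61: component lemmas for S4587, part A (conjugates of a component, maximal p-subgroups
-- of the layer).
import Mathlib
import Cfsg.Prelude.Def_Local
import Cfsg.Agent.Lib.Helper21.Quasi
import Cfsg.Agent.Lib.Helper22.Comp
import Cfsg.Agent.Lib.Helper22.Conj
import Cfsg.Agent.Lib.Helper61.BG40.Prod
import Cfsg.Agent.Lib.Helper61.MC.Wrap

set_option autoImplicit false

namespace Cfsg.Agent.Lib.Helper61.MC

open Subgroup

/-- The conjugate of a subgroup by `g` is the subgroup itself exactly when `g` normalizes it. -/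
theorem map_conj_eq_iff {G : Type*} [Group G] {K : Subgroup G} {g : G} :
    K.map (MulAut.conj g).toMonoidHom = K ↔ g ∈ normalizer (K : Set G) := by
  constructor
  · intro h
    rw [mem_normalizer_iff'']
    intro x
    rw [← Cfsg.Agent.Lib.Helper22.mem_map_conj_iff, h]
  · intro hg
    ext x
    rw [Cfsg.Agent.Lib.Helper22.mem_map_conj_iff]
    exact ((mem_normalizer_iff''.mp hg) x).symm

/-- Commutators of products of elements from two elementwise commuting subgroups. -/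
theorem comm_mul_comm {G : Type*} [Group G] (A B : Subgroup G)
    (hAB : ∀ a ∈ A, ∀ b ∈ B, a * b = b * a) {r₁ r₂ c₁ c₂ : G} (hr₁ : r₁ ∈ A) (hr₂ : r₂ ∈ A)
    (hc₁ : c₁ ∈ B) (hc₂ : c₂ ∈ B) :
    (r₁ * c₁) * (r₂ * c₂) * (r₁ * c₁)⁻¹ * (r₂ * c₂)⁻¹ =
      (r₁ * r₂ * r₁⁻¹ * r₂⁻¹) * (c₁ * c₂ * c₁⁻¹ * c₂⁻¹) := by
  have h1 := Cfsg.Agent.Lib.Helper61.BG40.prodHom_apply A B hAB
  have e1 : r₁ * c₁ = Cfsg.Agent.Lib.Helper61.BG40.prodHom A B hAB (⟨r₁, hr₁⟩, ⟨c₁, hc₁⟩) :=
    (h1 (⟨r₁, hr₁⟩, ⟨c₁, hc₁⟩)).symm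
  have e2 : r₂ * c₂ = Cfsg.Agent.Lib.Helper61.BG40.prodHom A B hAB (⟨r₂, hr₂⟩, ⟨c₂, hc₂⟩) :=
    (h1 (⟨r₂, hr₂⟩, ⟨c₂, hc₂⟩)).symm
  rw [e1, e2, ← map_inv, ← map_inv, ← map_mul, ← map_mul, ← map_mul, h1]
  rfl

/-- A nontrivial layer contains a component. -/
theorem exists_component_of_layer_ne_bot {G : Type*} [Group G] (h : Cfsg.layer G ≠ ⊥) :
    ∃ K : Subgroup G, Cfsg.IsComponent K := by
  by_contra hcon
  apply h
  rw [eq_bot_iff, Cfsg.Agent.Lib.Helper22.layer_le_iff]
  intro K hK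
  exact absurd ⟨K, hK⟩ hcon

/-- If the layer has trivial centralizer, the Sylow subgroup `P` is transitive on the
components and `G` is not almost simple, then `P` moves every component. -/
theorem exists_conj_ne {G : Type*} [Group G] [Finite G] {p : ℕ} [Fact p.Prime] (P : Sylow p G)
    (hcent : centralizer (Cfsg.layer G : Set G) = ⊥)
    (htrans : ∀ K L : Subgroup G, Cfsg.IsComponent K → Cfsg.IsComponent L →
      ∃ x ∈ (P : Subgroup G), L = K.map (MulAut.conj x).toMonoidHom)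
    (hnas : ¬ ∃ S : Subgroup G, S.Normal ∧ IsSimpleGroup S ∧ ¬ IsMulCommutative S ∧
      centralizer (S : Set G) = ⊥)
    (K : Subgroup G) (hK : Cfsg.IsComponent K) :
    ∃ y ∈ (P : Subgroup G), K.map (MulAut.conj y).toMonoidHom ≠ K := by
  by_contra hcon
  have hall : ∀ y ∈ (P : Subgroup G), K.map (MulAut.conj y).toMonoidHom = K := by
    intro y hy
    by_contra hne
    exact hcon ⟨y, hy, hne⟩
  have hKE : Cfsg.layer G = K := by
    apply le_antisymm
    · rw [Cfsg.Agent.Lib.Helper22.layer_le_iff]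
      intro L hL
      obtain ⟨x, hx, hLx⟩ := htrans K L hK hL
      rw [hLx, hall x hx]
    · exact Cfsg.Agent.Lib.Helper22.component_le_layer hK
  have hKn : K.Normal := hKE ▸ Cfsg.Agent.Lib.Helper22.layer_normal' G
  have hcK : centralizer (K : Set G) = ⊥ := hKE ▸ hcent
  apply hnas
  refine ⟨K, hKn, ?_, Cfsg.Agent.Lib.Helper21.quasisimple_not_isMulCommutative hK.2, hcK⟩
  have hZ : center K = ⊥ := by
    rw [eq_bot_iff]
    intro z hz
    have hz' : (z : G) ∈ centralizer (K : Set G) := by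
      rw [mem_centralizer_iff]
      intro h hh
      have := mem_center_iff.mp hz ⟨h, hh⟩
      exact congrArg Subtype.val this
    rw [hcK, mem_bot] at hz'
    rw [mem_bot]
    exact Subtype.ext hz'
  have := Cfsg.Agent.Lib.Helper21.quasisimple_nontrivial hK.2
  refine ⟨fun N hN => ?_⟩
  rcases Cfsg.Agent.Lib.Helper21.quasisimple_normal_eq_top_or_le_center hK.2 N with h1 | h1
  · exact Or.inr h1
  · left
    rw [eq_bot_iff, ← hZ]
    exact h1

/-- The intersection of a Sylow `p`-subgroup with a normal subgroup `E` is a maximal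
`p`-subgroup of `E`. -/
theorem eq_of_isPGroup_of_le {G : Type*} [Group G] [Finite G] {p : ℕ} [Fact p.Prime]
    (P : Sylow p G) (E : Subgroup G) [hE : E.Normal] (S : Subgroup G) (hS : IsPGroup p S)
    (hSE : S ≤ E) (hle : (P : Subgroup G) ⊓ E ≤ S) : S = (P : Subgroup G) ⊓ E := by
  obtain ⟨P₂, hP₂⟩ := hS.exists_le_sylow
  obtain ⟨g, hg⟩ := sylow_eq_map_conj P P₂
  have hEg : E.map (MulAut.conj g).toMonoidHom = E := by
    rw [map_conj_eq_iff, normalizer_eq_top_iff.mpr hE]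
    exact mem_top g
  have hmap : ((P : Subgroup G) ⊓ E).map (MulAut.conj g).toMonoidHom = (P₂ : Subgroup G) ⊓ E := by
    rw [Subgroup.map_inf _ _ _ (MulAut.conj g).injective, ← hg, hEg]
  have hcard : Nat.card ↥((P₂ : Subgroup G) ⊓ E) = Nat.card ↥((P : Subgroup G) ⊓ E) := by
    rw [← hmap]
    exact Subgroup.card_map_of_injective (MulAut.conj g).injective
  have h1 : Nat.card S ≤ Nat.card ↥((P : Subgroup G) ⊓ E) := by
    rw [← hcard]
    exact Subgroup.card_le_of_le (le_inf hP₂ hSE)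
  exact (Subgroup.eq_of_le_of_card_ge hle h1).symm

end Cfsg.Agent.Lib.Helper61.MC
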