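-- helper61: a transfer lemma for S4587 (transfer from P into a normal subgroup Q).
import Mathlib
import Cfsg.Agent.Lib.Helper87.LocalTate

set_option autoImplicit false

namespace Cfsg.Agent.Lib.Helper61.MC

open Subgroup

/-- Transfer into a normal subgroup `Q` of `P`: if `D ≤ Q` is normal in `Q` with `Q / D`
commutative, and every conjugate of an element of `R ≤ Q` by an element outside `Q` lies in
`D`, then `R ∩ P' ≤ D`. -/
theorem inf_commutator_le_of_transfer {P : Type*} [Group P] [Finite P] (Q R D : Subgroup P)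
    [hQn : Q.Normal] (hRQ : R ≤ Q)
    (hDn : ∀ q ∈ Q, ∀ d ∈ D, q * d * q⁻¹ ∈ D)
    (hab : ∀ a ∈ Q, ∀ b ∈ Q, a * b * a⁻¹ * b⁻¹ ∈ D)
    (hconj : ∀ g : P, g ∉ Q → ∀ r ∈ R, g⁻¹ * r * g ∈ D) :
    R ⊓ commutator P ≤ D := by
  classical
  haveI hD'n : (D.subgroupOf Q).Normal := ⟨fun d hd q => by
    rw [mem_subgroupOf] at hd ⊢
    exact hDn q q.2 d hd⟩
  letI instCG : CommGroup (↥Q ⧸ D.subgroupOf Q) :=
    { QuotientGroup.Quotient.group (D.subgroupOf Q) with
      mul_comm := by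
        intro a b
        induction a using QuotientGroup.induction_on with
        | H a =>
          induction b using QuotientGroup.induction_on with
          | H b =>
            show ((a * b : Q) : ↥Q ⧸ D.subgroupOf Q) = ((b * a : Q) : ↥Q ⧸ D.subgroupOf Q)
            rw [QuotientGroup.eq, mem_subgroupOf]
            have h := hab (b⁻¹ : Q) (b⁻¹ : Q).2 (a⁻¹ : Q) (a⁻¹ : Q).2
            have e : (((a * b)⁻¹ * (b * a) : Q) : P) =
                ((b⁻¹ : Q) : P) * ((a⁻¹ : Q) : P) * ((b⁻¹ : Q) : P)⁻¹ * ((a⁻¹ : Q) : P)⁻¹ := by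
              push_cast
              group
            rw [e]
            exact h }
  let ϕ : ↥Q →* ↥Q ⧸ D.subgroupOf Q :=
    { toFun := QuotientGroup.mk
      map_one' := rfl
      map_mul' := fun _ _ => rfl }
  have hϕ : ∀ x : Q, ϕ x = 1 ↔ (x : P) ∈ D := by
    intro x
    show ((x : Q) : ↥Q ⧸ D.subgroupOf Q) = 1 ↔ (x : P) ∈ D
    rw [QuotientGroup.eq_one_iff, mem_subgroupOf]
  haveI : Fintype (P ⧸ Q) := Fintype.ofFinite _
  intro r hr
  obtain ⟨hrR, hrc⟩ := hr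
  have hrQ : r ∈ Q := hRQ hrR
  obtain ⟨s, hs, hmem, hprod⟩ := Cfsg.Agent.Lib.Helper87.transfer_normal_eq_prod Q ϕ r hrQ
  have hker : MonoidHom.transfer ϕ r = 1 :=
    (Abelianization.commutator_subset_ker (MonoidHom.transfer ϕ)) hrc
  rw [hker] at hprod
  have hsingle : ∏ q : P ⧸ Q, ϕ ⟨(s q)⁻¹ * r * s q, hmem q⟩ = ϕ ⟨r, hrQ⟩ := by
    rw [Finset.prod_eq_single ((1 : P) : P ⧸ Q)]
    · have h1 : s ((1 : P) : P ⧸ Q) ∈ Q := by
        have h0 := hs ((1 : P) : P ⧸ Q)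
        rw [QuotientGroup.eq] at h0
        have h2 := Q.inv_mem h0
        simpa using h2
      have e : (⟨(s ((1 : P) : P ⧸ Q))⁻¹ * r * s ((1 : P) : P ⧸ Q), hmem _⟩ : Q) =
          (⟨s ((1 : P) : P ⧸ Q), h1⟩ : Q)⁻¹ * ⟨r, hrQ⟩ * ⟨s ((1 : P) : P ⧸ Q), h1⟩ := rfl
      rw [e, map_mul, map_mul, map_inv, mul_comm, mul_inv_cancel_left]
    · intro q _ hq
      have hsq : s q ∉ Q := by
        intro h
        apply hq
        rw [← hs q]
        exact (QuotientGroup.eq_one_iff _).mpr h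
      exact (hϕ _).mpr (hconj (s q) hsq r hrR)
    · intro h
      exact absurd (Finset.mem_univ _) h
  rw [hsingle] at hprod
  exact (hϕ ⟨r, hrQ⟩).mp hprod.symm

end Cfsg.Agent.Lib.Helper61.MC
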