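-- helper61: component lemmas for S4587, part B (the Sylow subgroup of the layer is commutative).
import Mathlib
import Cfsg.Prelude.Def_Local
import Cfsg.Agent.Lib.Helper22.Comp
import Cfsg.Agent.Lib.Helper22.Conj
import Cfsg.Agent.Lib.Helper22.Layer
import Cfsg.Agent.Lib.Helper22.Fstar
import Cfsg.Agent.Lib.Helper61.MC.CompA
import Cfsg.Agent.Lib.Helper61.MC.Tr

set_option autoImplicit false

namespace Cfsg.Agent.Lib.Helper61.MC

open Subgroup

section CompB

variable {G : Type*} [Group G] [Finite G]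

/-- A component commutes elementwise with the product of the other components. -/
theorem comp_commute {L C : Subgroup G} (hL : Cfsg.IsComponent L)
    (hC : C = sSup {L' : Subgroup G | Cfsg.IsComponent L' ∧ L' ≠ L}) :
    ∀ l ∈ L, ∀ c ∈ C, l * c = c * l := by
  have h1 : C ≤ centralizer (L : Set G) := by
    rw [hC]
    apply sSup_le
    rintro L' ⟨hL', hne⟩
    rw [← Subgroup.commutator_eq_bot_iff_le_centralizer]
    exact Cfsg.Agent.Lib.Helper22.components_commute hL' hL hne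
  intro l hl c hc
  exact mem_centralizer_iff.mp (h1 hc) l hl

omit [Finite G] in
/-- The layer is generated by a component and the product of the other components. -/
theorem comp_sup {L C : Subgroup G} (hL : Cfsg.IsComponent L)
    (hC : C = sSup {L' : Subgroup G | Cfsg.IsComponent L' ∧ L' ≠ L}) :
    L ⊔ C = Cfsg.layer G := by
  apply le_antisymm
  · apply sup_le (Cfsg.Agent.Lib.Helper22.component_le_layer hL)
    rw [hC]
    apply sSup_le
    rintro L' ⟨hL', -⟩
    exact Cfsg.Agent.Lib.Helper22.component_le_layer hL'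
  · rw [Cfsg.Agent.Lib.Helper22.layer_le_iff]
    intro L' hL'
    by_cases h : L' = L
    · rw [h]; exact le_sup_left
    · exact le_trans (by rw [hC]; exact le_sSup ⟨hL', h⟩) le_sup_right

/-- If the layer has trivial centralizer, a component meets the product of the other
components trivially. -/
theorem comp_inf {L C : Subgroup G} (hL : Cfsg.IsComponent L)
    (hC : C = sSup {L' : Subgroup G | Cfsg.IsComponent L' ∧ L' ≠ L})
    (hcent : centralizer (Cfsg.layer G : Set G) = ⊥) : L ⊓ C = ⊥ := by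
  have hcomm := comp_commute hL hC
  rw [eq_bot_iff]
  intro x hx
  have h1 : x ∈ centralizer (Cfsg.layer G : Set G) := by
    rw [mem_centralizer_iff]
    intro e he
    have he' : e ∈ L ⊔ C := by rw [comp_sup hL hC]; exact he
    obtain ⟨l, hl, c, hc, rfl⟩ := Cfsg.Agent.Lib.Helper22.mem_sup_of_comm hcomm he'
    have e1 : x * c = c * x := hcomm x hx.1 c hc
    have e2 : l * x = x * l := hcomm l hl x hx.2
    calc l * c * x = l * (c * x) := mul_assoc _ _ _
      _ = l * (x * c) := by rw [e1]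
      _ = (l * x) * c := (mul_assoc _ _ _).symm
      _ = x * l * c := by rw [e2]
      _ = x * (l * c) := mul_assoc _ _ _
  rw [hcent] at h1
  exact h1

/-- The layer normalizes the product of the components other than `L`. -/
theorem layer_le_normalizer_coComp {L C : Subgroup G} (hL : Cfsg.IsComponent L)
    (hC : C = sSup {L' : Subgroup G | Cfsg.IsComponent L' ∧ L' ≠ L}) :
    Cfsg.layer G ≤ normalizer (C : Set G) := by
  rw [← comp_sup hL hC]
  apply sup_le
  · refine le_trans ?_ (centralizer_le_normalizer _)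
    intro l hl
    rw [mem_centralizer_iff]
    intro c hc
    exact (comp_commute hL hC l hl c hc).symm
  · exact le_normalizer

/-- Every element of `P ∩ E(G)` is the product of an element of `P ∩ L` and an element of the
product of the other components. -/
theorem exists_mul_of_mem {p : ℕ} [Fact p.Prime] (P : Sylow p G) {L C : Subgroup G}
    (hL : Cfsg.IsComponent L)
    (hC : C = sSup {L' : Subgroup G | Cfsg.IsComponent L' ∧ L' ≠ L})
    (hcent : centralizer (Cfsg.layer G : Set G) = ⊥) {q : G} (hqP : q ∈ (P : Subgroup G))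
    (hqE : q ∈ Cfsg.layer G) :
    ∃ r ∈ (P : Subgroup G) ⊓ L, ∃ c ∈ C, q = r * c := by
  have hcomm := comp_commute hL hC
  have hinf := comp_inf hL hC hcent
  have hEn : (Cfsg.layer G).Normal := Cfsg.Agent.Lib.Helper22.layer_normal' G
  have hNL := Cfsg.Agent.Lib.Helper22.layer_le_normalizer_component hL
  have hNC := layer_le_normalizer_coComp hL hC
  have hLE := Cfsg.Agent.Lib.Helper22.component_le_layer hL
  obtain ⟨QL, hQL⟩ : ∃ QL : Subgroup G, ∀ k : G, k ∈ QL ↔
      (k ∈ L ∧ ∃ c ∈ C, k * c ∈ (P : Subgroup G) ⊓ Cfsg.layer G) := by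
    refine ⟨{ carrier := {k | k ∈ L ∧ ∃ c ∈ C, k * c ∈ (P : Subgroup G) ⊓ Cfsg.layer G}
              mul_mem' := ?_
              one_mem' := ⟨L.one_mem, 1, C.one_mem, by rw [mul_one]; exact one_mem _⟩
              inv_mem' := ?_ }, fun k => Iff.rfl⟩
    · rintro k₁ k₂ ⟨hk₁, c₁, hc₁, h₁⟩ ⟨hk₂, c₂, hc₂, h₂⟩
      refine ⟨L.mul_mem hk₁ hk₂, c₁ * c₂, C.mul_mem hc₁ hc₂, ?_⟩
      have e : k₁ * k₂ * (c₁ * c₂) = (k₁ * c₁) * (k₂ * c₂) := by
        have h3 := hcomm k₂ hk₂ c₁ hc₁
        calc k₁ * k₂ * (c₁ * c₂) = k₁ * (k₂ * c₁) * c₂ := by group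
          _ = k₁ * (c₁ * k₂) * c₂ := by rw [h3]
          _ = (k₁ * c₁) * (k₂ * c₂) := by group
      rw [e]
      exact mul_mem h₁ h₂
    · rintro k ⟨hk, c, hc, h⟩
      refine ⟨L.inv_mem hk, c⁻¹, C.inv_mem hc, ?_⟩
      have e : k⁻¹ * c⁻¹ = (k * c)⁻¹ := by
        rw [mul_inv_rev]
        exact hcomm k⁻¹ (L.inv_mem hk) c⁻¹ (C.inv_mem hc)
      rw [e]
      exact inv_mem h
  have hQLp : IsPGroup p QL := by
    rintro ⟨k, hk⟩
    obtain ⟨hkL, c, hc, h⟩ := (hQL k).mp hk
    obtain ⟨n, hn⟩ := P.isPGroup' ⟨k * c, h.1⟩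
    have h1 : (k * c) ^ p ^ n = 1 := congrArg Subtype.val hn
    have hkc : Commute k c := hcomm k hkL c hc
    rw [hkc.mul_pow] at h1
    have h2 : k ^ p ^ n ∈ L ⊓ C := by
      refine ⟨L.pow_mem hkL _, ?_⟩
      have h3 : k ^ p ^ n = (c ^ p ^ n)⁻¹ := eq_inv_of_mul_eq_one_left h1
      rw [h3]
      exact C.inv_mem (C.pow_mem hc _)
    rw [hinf, mem_bot] at h2
    exact ⟨n, Subtype.ext h2⟩
  have hQn : (P : Subgroup G) ⊓ Cfsg.layer G ≤ normalizer (QL : Set G) := by
    apply Cfsg.Agent.Lib.Helper22.le_normalizer_of_conj_mem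
    intro g hg k hk
    obtain ⟨hkL, c, hc, h⟩ := (hQL k).mp hk
    rw [hQL]
    refine ⟨(mem_normalizer_iff.mp (hNL hg.2) k).mp hkL, g * c * g⁻¹,
      (mem_normalizer_iff.mp (hNC hg.2) c).mp hc, ?_⟩
    have e : g * k * g⁻¹ * (g * c * g⁻¹) = g * (k * c) * g⁻¹ := by group
    rw [e]
    exact mul_mem (mul_mem hg h) (inv_mem hg)
  have hS : IsPGroup p ↥(((P : Subgroup G) ⊓ Cfsg.layer G) ⊔ QL) :=
    IsPGroup.to_sup_of_normal_right' (P.isPGroup'.to_le inf_le_left) hQLp hQn
  have hSE : ((P : Subgroup G) ⊓ Cfsg.layer G) ⊔ QL ≤ Cfsg.layer G :=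
    sup_le inf_le_right (fun k hk => hLE ((hQL k).mp hk).1)
  have heq := eq_of_isPGroup_of_le P (Cfsg.layer G) _ hS hSE le_sup_left
  have hq' : q ∈ L ⊔ C := by rw [comp_sup hL hC]; exact hqE
  obtain ⟨k, hk, c, hc, rfl⟩ := Cfsg.Agent.Lib.Helper22.mem_sup_of_comm hcomm hq'
  have hkQL : k ∈ QL := (hQL k).mpr ⟨hk, c, hc, hqP, hqE⟩
  have hkP : k ∈ (P : Subgroup G) ⊓ Cfsg.layer G := by
    rw [← heq]
    exact (le_sup_right : QL ≤ ((P : Subgroup G) ⊓ Cfsg.layer G) ⊔ QL) hkQL
  exact ⟨k, ⟨hkP.1, hk⟩, c, hc, rfl⟩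

/-- If `E(G)` has index `p` in `P` and `P` moves the component `L`, then conjugation by an
element of `P` outside `E(G)` takes `L` into the product of the other components. -/
theorem conj_mem_coComp {p : ℕ} [Fact p.Prime] (P : Sylow p G) {L C : Subgroup G}
    (hL : Cfsg.IsComponent L)
    (hC : C = sSup {L' : Subgroup G | Cfsg.IsComponent L' ∧ L' ≠ L})
    (hQ : (Cfsg.layer G).relIndex (P : Subgroup G) = p)
    (hmove : ∃ y ∈ (P : Subgroup G), L.map (MulAut.conj y).toMonoidHom ≠ L)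
    {g : G} (hgP : g ∈ (P : Subgroup G)) (hgE : g ∉ Cfsg.layer G) {r : G} (hr : r ∈ L) :
    g⁻¹ * r * g ∈ C := by
  have hp : p.Prime := Fact.out
  have hNL := Cfsg.Agent.Lib.Helper22.layer_le_normalizer_component hL
  have h1 : (P : Subgroup G) ⊓ Cfsg.layer G ≤ (P : Subgroup G) ⊓ normalizer (L : Set G) :=
    inf_le_inf_left _ hNL
  have h2 : (P : Subgroup G) ⊓ normalizer (L : Set G) ≤ (P : Subgroup G) := inf_le_left
  have hmul := Subgroup.relIndex_mul_relIndex _ _ _ h1 h2
  have h3 : ((P : Subgroup G) ⊓ Cfsg.layer G).relIndex (P : Subgroup G) = p := by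
    rw [inf_comm, Subgroup.inf_relIndex_right]; exact hQ
  rw [h3] at hmul
  have h4 : ((P : Subgroup G) ⊓ normalizer (L : Set G)).relIndex (P : Subgroup G) ≠ 1 := by
    intro h
    obtain ⟨y, hy, hne⟩ := hmove
    exact hne (map_conj_eq_iff.mpr ((Subgroup.relIndex_eq_one.mp h hy).2))
  have h5 : ((P : Subgroup G) ⊓ normalizer (L : Set G)).relIndex (P : Subgroup G) = p := by
    rcases (Nat.dvd_prime hp).mp (Dvd.intro_left _ hmul) with h | h
    · exact absurd h h4
    · exact h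
  rw [h5] at hmul
  have h6 : ((P : Subgroup G) ⊓ Cfsg.layer G).relIndex
      ((P : Subgroup G) ⊓ normalizer (L : Set G)) = 1 :=
    Nat.eq_of_mul_eq_mul_right hp.pos (by rw [hmul, one_mul])
  have h7 := Subgroup.relIndex_eq_one.mp h6
  have hg' : g⁻¹ ∉ normalizer (L : Set G) := by
    intro h
    have h8 := (h7 ⟨(P : Subgroup G).inv_mem hgP, h⟩).2
    have h9 := (Cfsg.layer G).inv_mem h8
    rw [inv_inv] at h9
    exact hgE h9
  have hne : L.map (MulAut.conj g⁻¹).toMonoidHom ≠ L := fun h => hg' (map_conj_eq_iff.mp h)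
  have hcomp : Cfsg.IsComponent (L.map (MulAut.conj g⁻¹).toMonoidHom) :=
    Cfsg.Agent.Lib.Helper22.isComponent_map_equiv (MulAut.conj g⁻¹) hL
  have hle : L.map (MulAut.conj g⁻¹).toMonoidHom ≤ C := by
    rw [hC]; exact le_sSup ⟨hcomp, hne⟩
  apply hle
  rw [Cfsg.Agent.Lib.Helper22.mem_map_conj_iff]
  have e : g⁻¹⁻¹ * (g⁻¹ * r * g) * g⁻¹ = r := by group
  rw [e]
  exact hr

end CompB

end Cfsg.Agent.Lib.Helper61.MC
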