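-- helper61: component lemmas for S4587, part C (transfer: `P ∩ L` and `P ∩ E(G)` are commutative).
import Mathlib
import Cfsg.Prelude.Def_Local
import Cfsg.Agent.Lib.Helper61.MC.CompB

set_option autoImplicit false

namespace Cfsg.Agent.Lib.Helper61.MC

open Subgroup
open scoped commutatorElement

section CompC

variable {G : Type*} [Group G] [Finite G]

/-- If `E(G)` has trivial centralizer and index `p` in the Sylow subgroup `P`, `P'` has index
`p` in `P ∩ E(G)` and `P` moves the component `L`, then `P ∩ L` is commutative. -/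
theorem comm_inf_component {p : ℕ} [Fact p.Prime] (P : Sylow p G)
    (hcent : centralizer (Cfsg.layer G : Set G) = ⊥)
    (hQ : (Cfsg.layer G).relIndex (P : Subgroup G) = p)
    (hP' : (⁅(P : Subgroup G), (P : Subgroup G)⁆).relIndex ((P : Subgroup G) ⊓ Cfsg.layer G) = p)
    {L : Subgroup G} (hL : Cfsg.IsComponent L)
    (hmove : ∃ y ∈ (P : Subgroup G), L.map (MulAut.conj y).toMonoidHom ≠ L) :
    ∀ a ∈ (P : Subgroup G) ⊓ L, ∀ b ∈ (P : Subgroup G) ⊓ L, a * b = b * a := by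
  have hp : p.Prime := Fact.out
  obtain ⟨C, hC⟩ : ∃ C : Subgroup G,
      C = sSup {L' : Subgroup G | Cfsg.IsComponent L' ∧ L' ≠ L} := ⟨_, rfl⟩
  obtain ⟨R, hR⟩ : ∃ R : Subgroup G, R = (P : Subgroup G) ⊓ L := ⟨_, rfl⟩
  obtain ⟨W, hW⟩ : ∃ W : Subgroup G, W = C ⊔ ⁅R, R⁆ := ⟨_, rfl⟩
  have hcomm := comp_commute hL hC
  have hinf := comp_inf hL hC hcent
  have hEn : (Cfsg.layer G).Normal := Cfsg.Agent.Lib.Helper22.layer_normal' G
  have hNL := Cfsg.Agent.Lib.Helper22.layer_le_normalizer_component hL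
  have hNC := layer_le_normalizer_coComp hL hC
  have hLE := Cfsg.Agent.Lib.Helper22.component_le_layer hL
  have hR'R : ⁅R, R⁆ ≤ R := Cfsg.Agent.Lib.Helper22.commutator_self_le' R
  have hRL : R ≤ L := by rw [hR]; exact inf_le_right
  have hR'L : ⁅R, R⁆ ≤ L := hR'R.trans hRL
  -- `P ∩ E(G)` normalizes `W`
  have hWn : (P : Subgroup G) ⊓ Cfsg.layer G ≤ normalizer (W : Set G) := by
    intro g hg
    rw [← map_conj_eq_iff]
    have hCg : C.map (MulAut.conj g).toMonoidHom = C := map_conj_eq_iff.mpr (hNC hg.2)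
    have hLg : L.map (MulAut.conj g).toMonoidHom = L := map_conj_eq_iff.mpr (hNL hg.2)
    have hPg : (P : Subgroup G).map (MulAut.conj g).toMonoidHom = (P : Subgroup G) :=
      map_conj_eq_iff.mpr (le_normalizer hg.1)
    have hRg : R.map (MulAut.conj g).toMonoidHom = R := by
      rw [hR, Subgroup.map_inf _ _ _ (MulAut.conj g).injective, hPg, hLg]
    rw [hW, Subgroup.map_sup, Subgroup.map_commutator, hCg, hRg]
  have key : R ⊓ ⁅(P : Subgroup G), (P : Subgroup G)⁆ ≤ ⁅R, R⁆ := by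
    intro r hr
    obtain ⟨hrR, hrc⟩ := hr
    have hrP : r ∈ (P : Subgroup G) := by rw [hR] at hrR; exact hrR.1
    have hrL : r ∈ L := hRL hrR
    have hT := inf_commutator_le_of_transfer (P := ↥(P : Subgroup G))
      ((Cfsg.layer G).subgroupOf (P : Subgroup G)) (L.subgroupOf (P : Subgroup G))
      (W.subgroupOf (P : Subgroup G))
      (fun x hx => mem_subgroupOf.mpr (hLE (mem_subgroupOf.mp hx)))
      (by
        intro q hq d hd
        rw [mem_subgroupOf] at hq hd ⊢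
        exact (mem_normalizer_iff.mp (hWn ⟨q.2, hq⟩) d).mp hd)
      (by
        intro a ha b hb
        rw [mem_subgroupOf] at ha hb ⊢
        obtain ⟨r₁, hr₁, c₁, hc₁, h₁⟩ := exists_mul_of_mem P hL hC hcent a.2 ha
        obtain ⟨r₂, hr₂, c₂, hc₂, h₂⟩ := exists_mul_of_mem P hL hC hcent b.2 hb
        show (a : G) * (b : G) * (a : G)⁻¹ * (b : G)⁻¹ ∈ W
        rw [h₁, h₂, comm_mul_comm L C hcomm hr₁.2 hr₂.2 hc₁ hc₂, hW]
        apply mul_mem
        · apply (le_sup_right : ⁅R, R⁆ ≤ C ⊔ ⁅R, R⁆)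
          have h3 : r₁ * r₂ * r₁⁻¹ * r₂⁻¹ = ⁅r₁, r₂⁆ := (commutatorElement_def r₁ r₂).symm
          rw [h3]
          exact Subgroup.commutator_mem_commutator (hR ▸ hr₁) (hR ▸ hr₂)
        · apply (le_sup_left : C ≤ C ⊔ ⁅R, R⁆)
          exact C.mul_mem (C.mul_mem (C.mul_mem hc₁ hc₂) (C.inv_mem hc₁)) (C.inv_mem hc₂))
      (by
        intro g hg r' hr'
        rw [mem_subgroupOf] at hg hr' ⊢
        have h4 := conj_mem_coComp P hL hC hQ hmove g.2 hg hr'
        rw [hW]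
        exact (le_sup_left : C ≤ C ⊔ ⁅R, R⁆) h4)
    have hrW : r ∈ W := by
      have h5 : (⟨r, hrP⟩ : (P : Subgroup G)) ∈
          L.subgroupOf (P : Subgroup G) ⊓ commutator ↥(P : Subgroup G) := by
        refine ⟨mem_subgroupOf.mpr hrL, ?_⟩
        rw [← Subgroup.map_subtype_commutator] at hrc
        obtain ⟨x, hx, hxr⟩ := hrc
        have h6 : x = ⟨r, hrP⟩ := Subtype.ext hxr
        rw [← h6]
        exact hx
      exact mem_subgroupOf.mp (hT h5)
    have hcomm' : ∀ c ∈ C, ∀ d ∈ ⁅R, R⁆, c * d = d * c :=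
      fun c hc d hd => (hcomm d (hR'L hd) c hc).symm
    rw [hW] at hrW
    obtain ⟨c, hc, d, hd, hrcd⟩ := Cfsg.Agent.Lib.Helper22.mem_sup_of_comm hcomm' hrW
    have hcL : c ∈ L := by
      have h7 : c = r * d⁻¹ := by rw [hrcd]; group
      rw [h7]
      exact L.mul_mem hrL (L.inv_mem (hR'L hd))
    have hc1 : c = 1 := by
      have h8 : c ∈ L ⊓ C := ⟨hcL, hc⟩
      rw [hinf] at h8
      exact h8
    rw [hrcd, hc1, one_mul]
    exact hd
  -- index computations
  have hRp : IsPGroup p R := P.isPGroup'.to_le (by rw [hR]; exact inf_le_left)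
  have hRQ : R ≤ (P : Subgroup G) ⊓ Cfsg.layer G := by
    rw [hR]; exact inf_le_inf_left _ hLE
  have h1 : (⁅R, R⁆).relIndex R ∣ (R ⊓ ⁅(P : Subgroup G), (P : Subgroup G)⁆).relIndex R :=
    Subgroup.relIndex_dvd_of_le_left R key
  have h2 : (R ⊓ ⁅(P : Subgroup G), (P : Subgroup G)⁆).relIndex R =
      (⁅(P : Subgroup G), (P : Subgroup G)⁆).relIndex R := by
    rw [inf_comm, Subgroup.inf_relIndex_right]
  have h3 : (⁅(P : Subgroup G), (P : Subgroup G)⁆).relIndex R ≤ p := by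
    have h30 : (⁅(P : Subgroup G), (P : Subgroup G)⁆).relIndex ((P : Subgroup G) ⊓ Cfsg.layer G)
        ≠ 0 := by
      rw [hP']
      exact hp.ne_zero
    exact (Subgroup.relIndex_le_of_le_right hRQ h30).trans hP'.le
  have hpos : 0 < (⁅(P : Subgroup G), (P : Subgroup G)⁆).relIndex R :=
    Nat.pos_of_dvd_of_pos (Subgroup.relIndex_dvd_card _ _) Nat.card_pos
  have h4 : (commutator ↥R).index ≤ p := by
    rw [← relIndex_commutator_self]
    rw [h2] at h1
    exact (Nat.le_of_dvd hpos h1).trans h3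
  obtain ⟨n, hn⟩ := IsPGroup.iff_card.mp hRp
  have hdvd : (commutator ↥R).index ∣ p ^ n := hn ▸ Subgroup.index_dvd_card _
  obtain ⟨k, -, hkeq⟩ := (Nat.dvd_prime_pow hp).mp hdvd
  have hk1 : k ≤ 1 := by
    rw [hkeq] at h4
    by_contra hk
    have h5 : p ^ 2 ≤ p ^ k := Nat.pow_le_pow_right hp.pos (by omega)
    have h6 : p < p ^ 2 := by
      have := hp.one_lt
      nlinarith
    omega
  have hdvdp : (commutator ↥R).index ∣ p := by
    rw [hkeq]
    exact (pow_dvd_pow p hk1).trans (by rw [pow_one])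
  have hab := comm_of_commutator_index_dvd hRp hdvdp
  intro a ha b hb
  exact congrArg Subtype.val (hab ⟨a, hR ▸ ha⟩ ⟨b, hR ▸ hb⟩)

/-- Under the same hypotheses for every component, `P ∩ E(G)` is commutative. -/
theorem comm_inf_layer {p : ℕ} [Fact p.Prime] (P : Sylow p G)
    (hcent : centralizer (Cfsg.layer G : Set G) = ⊥)
    (hQ : (Cfsg.layer G).relIndex (P : Subgroup G) = p)
    (hP' : (⁅(P : Subgroup G), (P : Subgroup G)⁆).relIndex ((P : Subgroup G) ⊓ Cfsg.layer G) = p)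
    (hmove : ∀ L : Subgroup G, Cfsg.IsComponent L →
      ∃ y ∈ (P : Subgroup G), L.map (MulAut.conj y).toMonoidHom ≠ L) :
    ∀ a ∈ (P : Subgroup G) ⊓ Cfsg.layer G, ∀ b ∈ (P : Subgroup G) ⊓ Cfsg.layer G,
      a * b = b * a := by
  intro a ha b hb
  have h1 : a * b * a⁻¹ * b⁻¹ ∈ centralizer (Cfsg.layer G : Set G) := by
    have hle : Cfsg.layer G ≤ centralizer ({a * b * a⁻¹ * b⁻¹} : Set G) := by
      rw [Cfsg.Agent.Lib.Helper22.layer_le_iff]
      intro L hL
      obtain ⟨C, hC⟩ : ∃ C : Subgroup G,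
          C = sSup {L' : Subgroup G | Cfsg.IsComponent L' ∧ L' ≠ L} := ⟨_, rfl⟩
      obtain ⟨r₁, hr₁, c₁, hc₁, h₁⟩ := exists_mul_of_mem P hL hC hcent ha.1 ha.2
      obtain ⟨r₂, hr₂, c₂, hc₂, h₂⟩ := exists_mul_of_mem P hL hC hcent hb.1 hb.2
      have hcomm := comp_commute hL hC
      have hab := comm_inf_component P hcent hQ hP' hL (hmove L hL) r₁ hr₁ r₂ hr₂
      have e : a * b * a⁻¹ * b⁻¹ = c₁ * c₂ * c₁⁻¹ * c₂⁻¹ := by
        rw [h₁, h₂, comm_mul_comm L C hcomm hr₁.2 hr₂.2 hc₁ hc₂, hab]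
        group
      intro l hl
      rw [mem_centralizer_iff]
      intro x hx
      rw [Set.mem_singleton_iff] at hx
      rw [hx, e]
      exact (hcomm l hl _
        (C.mul_mem (C.mul_mem (C.mul_mem hc₁ hc₂) (C.inv_mem hc₁)) (C.inv_mem hc₂))).symm
    rw [mem_centralizer_iff]
    intro e he
    exact (mem_centralizer_iff.mp (hle he) _ (Set.mem_singleton _)).symm
  rw [hcent, mem_bot] at h1
  calc a * b = (a * b * a⁻¹ * b⁻¹) * (b * a) := by group
    _ = b * a := by rw [h1, one_mul]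

end CompC

end Cfsg.Agent.Lib.Helper61.MC
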